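import Cfsg.Agent.H288.E8L.Iface

/-!
# S5921, `L₂(81)` in `E₈(3)`: the stabiliser of an interior point of the alcove, and `-1` in the Weyl group (helper845)

* `coweight` : a functional on the root lattice of `E₈` with values in `{-1, 0, 1}` on the roots is zero;
* `reg : REG`, `neg : NEG`.
-/

set_option autoImplicit false
set_option linter.unusedSectionVars false
set_option maxRecDepth 100000

namespace Cfsg.Agent.H845.E8L

open CoxeterSystem Cfsg Cfsg.Lie Cfsg.Lie.ChevalleyDatum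
open Cfsg.Agent.ChevalleyStructure Cfsg.Agent.ChevalleyStructure.Elts Cfsg.Agent.ChevalleyStructure.CoxeterGeom
  Cfsg.Agent.ChevalleyStructure.CoxeterGeomTypes
open Cfsg.Agent.Tits.Roots Cfsg.Agent.Tits.Core Cfsg.Agent.Nodes Cfsg.Agent.Nodes.Reps Cfsg.Agent.Nodes.BNOf
  Cfsg.Agent.Nodes.RGDChev
open Cfsg.Agent.GpExc.Field Cfsg.Agent.BpExc.TowChev Cfsg.Agent.H129.TorusChar
open Cfsg.Agent.H942.E8Tab Cfsg.Agent.H942.E8Alc Cfsg.Agent.H942.CB Cfsg.Agent.H944.Tab Cfsg.Agent.H944.Kac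
open Cfsg.Agent.H288.E8L

/-! ### `-1` -/

/-- the 15th power of a Coxeter element -/
def w0w : List ℕ := (List.replicate 15 [0, 1, 2, 3, 4, 5, 6, 7]).flatten

/-- the coordinate functionals -/
def cf (i : ℕ) : List ℤ := (List.range 8).map fun j => if i = j then 1 else 0

/-- the negative coordinate functionals -/
def cfn (i : ℕ) : List ℤ := (List.range 8).map fun j => if i = j then -1 else 0

theorem w0_lt : ∀ i ∈ w0w, i < 8 := by decide

theorem w0_act : ∀ i < 8, actW w0w (cf i) = cfn i := by decide +kernel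

theorem fz_cf (i : Fin 8) (x : Fin 8 → ℤ) : fz (cf i) x = x i := by
  unfold fz
  rw [Finset.sum_eq_single i]
  · have : (cf i).getD i 0 = 1 := by fin_cases i <;> rfl
    rw [this, one_mul]
  · intro j _ hj
    have : (cf i).getD j 0 = 0 := by
      revert hj
      revert i j
      decide
    rw [this, zero_mul]
  · intro h
    exact absurd (Finset.mem_univ i) h

theorem fz_cfn (i : Fin 8) (x : Fin 8 → ℤ) : fz (cfn i) x = -x i := by
  unfold fz
  rw [Finset.sum_eq_single i]
  · have : (cfn i).getD i 0 = -1 := by fin_cases i <;> rfl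
    rw [this, neg_one_mul]
  · intro j _ hj
    have : (cfn i).getD j 0 = 0 := by
      revert hj
      revert i j
      decide
    rw [this, zero_mul]
  · intro h
    exact absurd (Finset.mem_univ i) h

/-- **NEG** -/
theorem neg : NEG := by
  refine ⟨word w0w, fun x => ?_⟩
  funext i
  have h1 := fz_actW w0w w0_lt (c := cf i) rfl x
  rw [w0_act i i.2, fz_cfn, fz_cf] at h1
  exact h1.symm

/-! ### minuscule coweights -/

/-- the values on the positive roots are in `{-1, 0, 1}` -/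
def allow (c : List ℤ) : Bool := R8.all fun r => decide (-1 ≤ dotZ r c ∧ dotZ r c ≤ 1)

/-- the search -/
def go : ℕ → List ℤ → Bool
  | 0, c => !(allow c) || c.all fun a => decide (a = 0)
  | n + 1, c => go n (-1 :: c) && (go n (0 :: c) && go n (1 :: c))

theorem go_succ (n : ℕ) (c : List ℤ) :
    go (n + 1) c = (go n (-1 :: c) && (go n (0 :: c) && go n (1 :: c))) := rfl

theorem go_ok_1 : go 6 [-1, -1] = true := by decide +kernel

theorem go_ok_2 : go 6 [0, -1] = true := by decide +kernel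

theorem go_ok_3 : go 6 [1, -1] = true := by decide +kernel

theorem go_ok_4 : go 6 [-1, 0] = true := by decide +kernel

theorem go_ok_5 : go 6 [0, 0] = true := by decide +kernel

theorem go_ok_6 : go 6 [1, 0] = true := by decide +kernel

theorem go_ok_7 : go 6 [-1, 1] = true := by decide +kernel

theorem go_ok_8 : go 6 [0, 1] = true := by decide +kernel

theorem go_ok_9 : go 6 [1, 1] = true := by decide +kernel

theorem go_ok : go 8 [] = true := by
  have e0 : go 8 [] = (go 7 [-1] && (go 7 [0] && go 7 [1])) := go_succ 7 []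
  have e1 : go 7 [-1] = (go 6 [-1, -1] && (go 6 [0, -1] && go 6 [1, -1])) := go_succ 6 [-1]
  have e2 : go 7 [0] = (go 6 [-1, 0] && (go 6 [0, 0] && go 6 [1, 0])) := go_succ 6 [0]
  have e3 : go 7 [1] = (go 6 [-1, 1] && (go 6 [0, 1] && go 6 [1, 1])) := go_succ 6 [1]
  rw [e0, e1, e2, e3, go_ok_1, go_ok_2, go_ok_3, go_ok_4, go_ok_5, go_ok_6, go_ok_7, go_ok_8, go_ok_9]
  rfl

theorem go_spec (n : ℕ) : ∀ (c : List ℤ), go n c = true → ∀ l : List ℤ, l.length = n →
    (∀ a ∈ l, a = -1 ∨ a = 0 ∨ a = 1) → go 0 (l ++ c) = true := by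
  induction n with
  | zero =>
    intro c hc l hl _
    rw [List.length_eq_zero_iff.1 hl]
    exact hc
  | succ n ih =>
    intro c hc l hl ha
    have hne : l ≠ [] := by rintro rfl; simp at hl
    have h1 := List.dropLast_append_getLast hne
    have h2 : l ++ c = l.dropLast ++ (l.getLast hne :: c) := by
      conv_lhs => rw [← h1]
      rw [List.append_assoc]
      rfl
    rw [h2]
    have hc' : (go n (-1 :: c) && (go n (0 :: c) && go n (1 :: c))) = true := hc
    rw [Bool.and_eq_true, Bool.and_eq_true] at hc'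
    refine ih _ ?_ _ (by rw [List.length_dropLast, hl]; rfl) fun a h => ha a (List.mem_of_mem_dropLast h)
    rcases ha _ (List.getLast_mem hne) with h | h | h
    · rw [h]; exact hc'.1
    · rw [h]; exact hc'.2.1
    · rw [h]; exact hc'.2.2

/-- the unit lists are positive roots -/
theorem toR_unit : ∀ i : Fin 8, ∃ r ∈ R8, toR r = sr i := by
  intro i
  have h : (sr i : Fin 8 → ℤ) ∈ RGD.Pos cs8 e8T.isCartan := ⟨isRoot_sr cs8 e8T.isCartan i, sr_nonneg i⟩
  obtain ⟨r, hr, h1⟩ := mem_pos_iff.1 h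
  exact ⟨r, hr, h1.symm⟩

/-- **no minuscule coweights** -/
theorem coweight {c : List ℤ} (hc : c.length = 8) (h : ∀ r ∈ R8, -1 ≤ fz c (toR r) ∧ fz c (toR r) ≤ 1) :
    ∀ a ∈ c, a = 0 := by
  have h1 : ∀ a ∈ c, a = -1 ∨ a = 0 ∨ a = 1 := by
    intro a ha
    obtain ⟨i, hi, rfl⟩ := List.getElem_of_mem ha
    obtain ⟨r, hr, h2⟩ := toR_unit ⟨i, by omega⟩
    have h3 := h r hr
    rw [h2, fz_sr, List.getD_eq_getElem _ _ hi] at h3
    omega
  have h2 := go_spec 8 [] go_ok c hc h1
  rw [List.append_nil] at h2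
  have h3 : allow c = true := by
    unfold allow
    rw [List.all_eq_true]
    intro r hr
    rw [decide_eq_true_iff, dotZ_fz hr]
    exact h r hr
  have h4 : (!(allow c) || c.all fun a => decide (a = 0)) = true := h2
  rw [h3] at h4
  intro a ha
  have h5 : (c.all fun a => decide (a = 0)) = true := h4
  exact of_decide_eq_true (List.all_eq_true.1 h5 a ha)

/-! ### the alcove -/

theorem th_le : ∀ r ∈ R8, ∀ i < 8, r.getD i 0 ≤ th8.getD i 0 := by decide +kernel

theorem ex_one : ∀ r ∈ R8, ∃ i < 8, 1 ≤ r.getD i 0 := by decide +kernel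

theorem YZ_getD (Y : List ℕ) (i : ℕ) : (YZ Y).getD i 0 = ((Y.getD i 0 : ℕ) : ℤ) := by
  unfold YZ
  rw [show (0 : ℤ) = ((0 : ℕ) : ℤ) from rfl, List.getD_map]

/-- the values of an interior point of the alcove on the positive roots -/
theorem bound {N : ℕ} {Y : List ℕ} (hY : ∀ i < 8, 1 ≤ Y.getD i 0) (hN : dotN th8 Y < N) {r : List ℕ} (hr : r ∈ R8) :
    0 < fz (YZ Y) (toR r) ∧ fz (YZ Y) (toR r) < N := by
  have h1 : fz (YZ Y) (toR r) = ((∑ i : Fin 8, r.getD i 0 * Y.getD i 0 : ℕ) : ℤ) := by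
    unfold fz
    push_cast
    refine Finset.sum_congr rfl fun i _ => ?_
    rw [YZ_getD, mul_comm]
    rfl
  have h2 : dotN th8 Y = ∑ i : Fin 8, th8.getD i 0 * Y.getD i 0 := dotN_eq 8 th8 Y (by decide)
  have h3 : ∑ i : Fin 8, r.getD i 0 * Y.getD i 0 ≤ ∑ i : Fin 8, th8.getD i 0 * Y.getD i 0 :=
    Finset.sum_le_sum fun i _ => Nat.mul_le_mul_right _ (th_le r hr i i.2)
  have h4 : 0 < ∑ i : Fin 8, r.getD i 0 * Y.getD i 0 := by
    obtain ⟨i, hi, h5⟩ := ex_one r hr
    have h6 : r.getD i 0 * Y.getD i 0 ≤ ∑ i : Fin 8, r.getD i 0 * Y.getD i 0 :=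
      Finset.single_le_sum (f := fun i : Fin 8 => r.getD i 0 * Y.getD i 0) (fun _ _ => Nat.zero_le _)
        (Finset.mem_univ (⟨i, hi⟩ : Fin 8))
    have h7 : 1 ≤ r.getD i 0 * Y.getD i 0 := Nat.mul_le_mul h5 (hY i hi)
    omega
  rw [h1]
  constructor
  · exact_mod_cast h4
  · have : ∑ i : Fin 8, r.getD i 0 * Y.getD i 0 < N := by omega
    exact_mod_cast this

theorem fz_neg (c : List ℤ) (x : Fin 8 → ℤ) : fz c (-x) = -fz c x := by
  have h := fz_sub c 0 x
  have h0 : fz c 0 = 0 := by unfold fz; simp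
  rw [zero_sub, h0, zero_sub] at h
  exact h

/-- the values on the roots -/
theorem bound' {N : ℕ} {Y : List ℕ} (hY : ∀ i < 8, 1 ≤ Y.getD i 0) (hN : dotN th8 Y < N) {a : Fin 8 → ℤ} (ha : Rt a) :
    -(N : ℤ) < fz (YZ Y) a ∧ fz (YZ Y) a < N := by
  rcases ha.pos_or_neg with h | h
  · obtain ⟨r, hr, rfl⟩ := mem_pos_iff.1 (⟨ha, h⟩ : a ∈ RGD.Pos cs8 e8T.isCartan)
    have := bound hY hN hr
    constructor <;> omega
  · obtain ⟨r, hr, h1⟩ := mem_pos_iff.1 (⟨ha.neg, neg_nonneg.2 h⟩ : -a ∈ RGD.Pos cs8 e8T.isCartan)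
    have := bound hY hN hr
    rw [← h1, fz_neg] at this
    constructor <;> omega

/-- **REG** -/
theorem reg : REG := by
  intro N Y ζ t w hY8 hY hN hζ ht hc hw
  have : Finite W8 := finite_W e8T cs8
  have hN0 : 0 < N := by omega
  have hζ0 : ζ ≠ 0 := hζ.ne_zero hN0.ne'
  -- the character
  have hψ : IsMC (fun x : Fin 8 → ℤ => ζ ^ fz (YZ Y) x) :=
    { zero := by
        show ζ ^ fz (YZ Y) 0 = 1
        have h0 : fz (YZ Y) 0 = 0 := by unfold fz; simp
        rw [h0, zpow_zero]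
      add := fun x y => by
        show ζ ^ fz (YZ Y) (x + y) = _
        rw [fz_add, zpow_add₀ hζ0] }
  have h1 : ∀ x, cX e8T t x = ζ ^ fz (YZ Y) x := (isMC_cX e8T ht).ext hψ (fun i => by
    rw [hc]
    show ζ ^ Y.getD i 0 = ζ ^ fz (YZ Y) (sr i)
    rw [fz_sr, YZ_getD, zpow_natCast])
  have h2 : ∀ x, (N : ℤ) ∣ fz (YZ Y) (act8 w x) - fz (YZ Y) x := by
    intro x
    have h3 := hw x
    rw [h1, h1] at h3
    rw [← hζ.zpow_eq_one_iff_dvd, zpow_sub₀ hζ0, h3, div_self (zpow_ne_zero _ hζ0)]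
  -- the quotient
  let lam : List ℤ := List.ofFn fun i : Fin 8 => (fz (YZ Y) (act8 w (sr i)) - fz (YZ Y) (sr i)) / N
  have hlen : lam.length = 8 := List.length_ofFn
  have hget : ∀ i : Fin 8, lam.getD i 0 = (fz (YZ Y) (act8 w (sr i)) - fz (YZ Y) (sr i)) / N := by
    intro i
    rw [List.getD_eq_getElem _ _ (by rw [hlen]; exact i.2), List.getElem_ofFn]
  have hadd : ∀ x, fz (YZ Y) (act8 w x) - fz (YZ Y) x = N * fz lam x := by
    intro x
    have hx : x = ∑ i : Fin 8, x i • sr i := by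
      funext j
      rw [Finset.sum_apply, Finset.sum_eq_single j]
      · rw [Pi.smul_apply, sr_self, smul_eq_mul, mul_one]
      · intro k _ hk
        rw [Pi.smul_apply, sr_ne (Ne.symm hk), smul_zero]
      · intro h
        exact absurd (Finset.mem_univ j) h
    have hsum : ∀ (c : List ℤ), fz c (∑ i : Fin 8, x i • sr i) = ∑ i : Fin 8, x i * fz c (sr i) := by
      intro c
      unfold fz
      simp only [Finset.sum_apply, Pi.smul_apply, smul_eq_mul, Finset.mul_sum]
      rw [Finset.sum_comm]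
      refine Finset.sum_congr rfl fun i _ => Finset.sum_congr rfl fun j _ => ?_
      ring
    have hsum' : fz (YZ Y) (act8 w (∑ i : Fin 8, x i • sr i)) = ∑ i : Fin 8, x i * fz (YZ Y) (act8 w (sr i)) := by
      have h5 : act8 w (∑ i : Fin 8, x i • sr i) = ∑ i : Fin 8, x i • act8 w (sr i) := by
        show rep cs8 e8T.isCartan w (∑ i : Fin 8, x i • sr i) = _
        rw [map_sum]
        exact Finset.sum_congr rfl fun i _ => map_zsmul _ _ _
      rw [h5]
      unfold fz
      simp only [Finset.sum_apply, Pi.smul_apply, smul_eq_mul, Finset.mul_sum]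
      rw [Finset.sum_comm]
      refine Finset.sum_congr rfl fun i _ => Finset.sum_congr rfl fun j _ => ?_
      ring
    rw [hx, hsum', hsum, hsum, ← Finset.sum_sub_distrib, Finset.mul_sum]
    refine Finset.sum_congr rfl fun i _ => ?_
    rw [fz_sr lam, hget, ← mul_sub]
    have h6 := Int.mul_ediv_cancel' (h2 (sr i))
    calc x i * (fz (YZ Y) (act8 w (sr i)) - fz (YZ Y) (sr i))
        = x i * (N * ((fz (YZ Y) (act8 w (sr i)) - fz (YZ Y) (sr i)) / N)) := by rw [h6]
      _ = _ := by ring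
  have hz : ∀ a ∈ lam, a = 0 := by
    refine coweight hlen fun r hr => ?_
    have hp : toR r ∈ RGD.Pos cs8 e8T.isCartan := mem_pos_iff.2 ⟨r, hr, rfl⟩
    have hrt : Rt (toR r) := hp.1
    have h5 := bound' hY hN hrt
    have h6 : -(N : ℤ) < fz (YZ Y) (act8 w (toR r)) ∧ fz (YZ Y) (act8 w (toR r)) < (N : ℤ) :=
      bound' hY hN (hrt.act w)
    have h7 := hadd (toR r)
    have h8 : (N : ℤ) * fz lam (toR r) < 2 * N := by omega
    have h9 : -(2 * N : ℤ) < (N : ℤ) * fz lam (toR r) := by omega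
    have hNp : (0 : ℤ) < N := by exact_mod_cast hN0
    constructor
    · by_contra hcon
      nlinarith
    · by_contra hcon
      nlinarith
  have hfz : ∀ x, fz (YZ Y) (act8 w x) = fz (YZ Y) x := by
    intro x
    have h5 := hadd x
    have h6 : fz lam x = 0 := by
      unfold fz
      refine Finset.sum_eq_zero fun i _ => ?_
      rw [List.getD_eq_getElem _ _ (by rw [hlen]; exact i.2), hz _ (List.getElem_mem _), zero_mul]
    rw [h6, mul_zero] at h5
    omega
  -- positivity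
  refine CoxeterGeom.eq_one_of_nonneg cs8 e8T.isCartan w fun i => ?_
  have hrt : Rt (act8 w (sr i)) := ⟨_, i, rfl⟩
  rcases hrt.pos_or_neg with h5 | h5
  · exact h5
  · exfalso
    obtain ⟨r, hr, h6⟩ := mem_pos_iff.1 (⟨hrt.neg, neg_nonneg.2 h5⟩ : -(act8 w (sr i)) ∈ RGD.Pos cs8 e8T.isCartan)
    have h7 := bound hY hN hr
    rw [← h6, fz_neg, hfz, fz_sr, YZ_getD] at h7
    omega

end Cfsg.Agent.H845.E8L
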